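import Cfsg.Agent.H244.S3509.AThree
import Cfsg.Agent.H256.G2.AOne
import Cfsg.Agent.H876.G2U.Main

/-!
# S3509, `G₂(q)`: `MFacts e` for every `e` with `dsc e ≠ 0` (helper244)
-/

set_option autoImplicit false
open Cfsg

namespace Cfsg.Agent.H244.S3509G2

open Cfsg.Agent.H161.Oct Cfsg.Agent.H106.RC Cfsg.Agent.H566.G2

/-- **(A3)** -/
theorem mfacts {F : Type} [Field F] [Finite F] (hq : 3 ≤ Nat.card F) {e : V F} (he : dsc e ≠ 0) : MFacts e :=
  mfacts_of (Cfsg.Agent.H256.G2.mfacts_e1 hq) (fun _ h => Cfsg.Agent.H876.G2U.mfacts_ns hq h) he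

end Cfsg.Agent.H244.S3509G2
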