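import Cfsg.Agent.H566.G2.Defs

/-!
# S3509, `G₂(q)`: box (A3), transport of `MFacts` and reduction to `e1` and to the anisotropic case (helper244)
-/

set_option autoImplicit false
open Cfsg

namespace Cfsg.Agent.H244.S3509G2

open Cfsg.Agent.H161.Oct Cfsg.Agent.H106.RC Cfsg.Agent.H566.G2
open scoped commutatorElement

variable {F : Type} [Field F]

/-- transport of `MFacts` along an automorphism of `AutO F` -/
theorem transport {e e' : V F} (h : MFacts e) (φ : AutO F ≃* AutO F)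
    (hM : ∀ g : AutO F, φ g ∈ MK e' ↔ g ∈ MK e) : MFacts e' := by
  have hM' : ∀ g : AutO F, φ.symm g ∈ MK e ↔ g ∈ MK e' := by
    intro g
    rw [← hM, MulEquiv.apply_symm_apply]
  have hmap : MK e' = (MK e).map (φ : AutO F →* AutO F) := by
    ext g
    constructor
    · intro hg
      exact ⟨φ.symm g, (hM' g).2 hg, φ.apply_symm_apply g⟩
    · rintro ⟨x, hx, rfl⟩
      exact (hM x).2 hx
  let ψ : MK e' ≃* MK e :=
    { toFun := fun g => ⟨φ.symm g.1, (hM' g.1).2 g.2⟩
      invFun := fun g => ⟨φ g.1, (hM g.1).2 g.2⟩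
      left_inv := fun g => Subtype.ext (φ.apply_symm_apply g.1)
      right_inv := fun g => Subtype.ext (φ.symm_apply_apply g.1)
      map_mul' := fun a b => Subtype.ext (map_mul φ.symm a.1 b.1) }
  refine ⟨?_, ?_, ?_, ?_, ?_⟩
  · rw [hmap, ← Subgroup.map_commutator, h.perf]
  · intro h0
    apply h.bot
    rw [eq_bot_iff]
    intro x hx
    have h1 : φ x ∈ MK e' := (hM x).2 hx
    rw [h0, Subgroup.mem_bot] at h1
    rw [Subgroup.mem_bot]
    exact (map_eq_one_iff φ φ.injective).1 h1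
  · intro h0
    apply h.top
    rw [eq_top_iff]
    intro x _
    rw [← hM x, h0]
    exact Subgroup.mem_top _
  · obtain ⟨S', i1, i2, π, hs, hk, hS, hn, hC, hE⟩ := h.quo
    refine ⟨S', i1, i2, π.comp (ψ : MK e' →* MK e), hs.comp ψ.surjective, ?_, hS, hn, hC, hE⟩
    intro x hx
    have h1 : ψ x ∈ Subgroup.center (MK e) := hk hx
    rw [Subgroup.mem_center_iff] at h1 ⊢
    intro g
    apply ψ.injective
    rw [map_mul, map_mul]
    exact h1 (ψ g)
  · intro c hc
    obtain ⟨h1, h2⟩ := h.cen (φ.symm c) (by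
      intro m hm
      apply φ.injective
      rw [map_mul, map_mul, MulEquiv.apply_symm_apply]
      exact hc (φ m) ((hM m).2 hm))
    refine ⟨(hM' c).1 h1, ?_⟩
    have h3 := congrArg φ h2
    rw [map_pow, MulEquiv.apply_symm_apply, map_one] at h3
    exact h3

/-- conjugates -/
theorem conj {e : V F} (h : MFacts e) (g : AutO F) : MFacts ((g : V F ≃ₗ[F] V F) e) := by
  apply transport h (MulAut.conj g)
  intro x
  rw [mem_MK, mem_MK, MulAut.conj_apply]
  have h1 : ((g * x * g⁻¹ : AutO F) : V F ≃ₗ[F] V F) ((g : V F ≃ₗ[F] V F) e)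
      = (g : V F ≃ₗ[F] V F) ((x : V F ≃ₗ[F] V F) e) := by
    change (g : V F ≃ₗ[F] V F) ((x : V F ≃ₗ[F] V F) ((g : V F ≃ₗ[F] V F).symm
      ((g : V F ≃ₗ[F] V F) e))) = _
    rw [LinearEquiv.symm_apply_apply]
  rw [h1]
  exact (g : V F ≃ₗ[F] V F).injective.eq_iff

theorem mk_affine (e : V F) {a b : F} (hb : b ≠ 0) : MK (a • o + b • e) = MK e := by
  ext g
  rw [mem_MK, mem_MK, map_add, map_smul, map_smul, map_o g.2, add_right_inj]
  constructor
  · intro h
    exact smul_right_injective _ hb h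
  · intro h
    rw [h]

/-- affine changes -/
theorem affine {e : V F} (h : MFacts e) {a b : F} (hb : b ≠ 0) : MFacts (a • o + b • e) := by
  apply transport h (MulEquiv.refl _)
  intro g
  rw [mk_affine e hb]
  exact Iff.rfl

/-- **Box (A3)**, from (A1) and (A2). -/
theorem mfacts_of (h1 : MFacts (e1 : V F))
    (h2 : ∀ e : V F, (∀ l : F, l ^ 2 - tr e * l + nm e ≠ 0) → MFacts e) {e : V F}
    (he : dsc e ≠ 0) : MFacts e := by
  by_cases hl : ∀ l : F, l ^ 2 - tr e * l + nm e ≠ 0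
  · exact h2 e hl
  push Not at hl
  obtain ⟨l, hl⟩ := hl
  obtain ⟨m, hm⟩ : ∃ m : F, tr e = l + m := ⟨tr e - l, by ring⟩
  have hnm : nm e = l * m := by
    rw [hm] at hl
    linear_combination hl
  have hml : m - l ≠ 0 := by
    intro h0
    apply he
    have h3 : m = l := sub_eq_zero.1 h0
    rw [dsc, hnm, hm, h3]
    ring
  let e' : V F := (m - l)⁻¹ • (e + (-l) • o)
  have ht : tr e' = 1 := by
    change tr ((m - l)⁻¹ • (e + (-l) • o)) = 1
    rw [tr_smul, tr_add, tr_smul, tr_o, hm]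
    field_simp
    ring
  have hn : nm e' = 0 := by
    change nm ((m - l)⁻¹ • (e + (-l) • o)) = 0
    rw [nm_smul, nm_add, nm_smul, bl_smul, bl_o, nm_o, hm, hnm]
    ring
  obtain ⟨h, hh, he1⟩ := exists_idem ht hn
  have h3 : MFacts e' := by
    have h4 := conj h1 (⟨h, hh⟩⁻¹ : AutO F)
    have h5 : (((⟨h, hh⟩⁻¹ : AutO F) : V F ≃ₗ[F] V F)) e1 = e' := by
      change h.symm e1 = e'
      rw [← he1, LinearEquiv.symm_apply_apply]
    rw [h5] at h4
    exact h4
  have h6 : e = l • o + (m - l) • e' := by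
    change e = l • o + (m - l) • ((m - l)⁻¹ • (e + (-l) • o))
    rw [smul_smul, mul_inv_cancel₀ hml, one_smul, neg_smul]
    abel
  rw [h6]
  exact affine h3 hml

end Cfsg.Agent.H244.S3509G2
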